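import Mathlib.GroupTheory.PGroup
import Mathlib.GroupTheory.Index
import Mathlib.GroupTheory.Perm.Basic
import Mathlib.SetTheory.Cardinal.Finite
import Mathlib.Data.Fintype.Perm
import Mathlib.Data.Finite.Perm
import Mathlib.GroupTheory.SpecificGroups.Cyclic
import Mathlib.Data.ZMod.Basic
import Mathlib.Algebra.GCDMonoid.Finset
import Mathlib.Tactic.Group

/-!
# Odd-order actions on an abelian two-group with three involutions

A group acting on an abelian 2-group with exactly three involutions, with odd quotient by the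
pointwise stabilizer, has quotient of order one or three, and that quotient acts freely.
-/

set_option autoImplicit false

namespace CfsgLib.Blocks.RankTwoHomocyclic

variable {G : Type*} [Group G] [Finite G] {P : Subgroup G}

omit [Finite G] in
theorem conj_pow' (t x : G) (n : ℕ) : t * x ^ n * t⁻¹ = (t * x * t⁻¹) ^ n :=
  map_pow (MulAut.conj t) x n

omit [Finite G] in
/-- An element of the normalizer fixing the involutions, with an odd power in the centralizer,
centralizes an abelian two-group. -/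
theorem conj_eq_of_fix_involutions (hab : ∀ x ∈ P, ∀ y ∈ P, x * y = y * x)
    (h2 : ∀ x ∈ P, ∃ j : ℕ, x ^ 2 ^ j = 1) {t : G}
    (hN : ∀ x ∈ P, t * x * t⁻¹ ∈ P) {n : ℕ} (hn : Odd n)
    (hC : ∀ x ∈ P, t ^ n * x * (t ^ n)⁻¹ = x)
    (hfix : ∀ x ∈ P, x * x = 1 → t * x * t⁻¹ = x) : ∀ x ∈ P, t * x * t⁻¹ = x := by
  suffices h : ∀ j : ℕ, ∀ x ∈ P, x ^ 2 ^ j = 1 → t * x * t⁻¹ = x by
    intro x hx
    obtain ⟨j, hj⟩ := h2 x hx
    exact h j x hx hj
  intro j
  induction j with
  | zero =>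
    intro x _ hj
    rw [pow_zero, pow_one] at hj
    rw [hj, mul_one, mul_inv_cancel]
  | succ j ih =>
    intro x hx hj
    rw [pow_succ', pow_mul] at hj
    have h1 := ih (x ^ 2) (P.pow_mem hx 2) hj
    rw [conj_pow'] at h1
    set y := t * x * t⁻¹ with hy
    have hyP : y ∈ P := hN x hx
    set z := x⁻¹ * y with hz
    have hzP : z ∈ P := P.mul_mem (P.inv_mem hx) hyP
    have hzz : z * z = 1 := by
      have hc := hab _ (P.inv_mem hx) _ hyP
      rw [hz]
      calc x⁻¹ * y * (x⁻¹ * y) = x⁻¹ * (y * x⁻¹) * y := by group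
        _ = x⁻¹ * x⁻¹ * (y * y) := by rw [← hc]; group
        _ = (x ^ 2)⁻¹ * y ^ 2 := by rw [pow_two, pow_two, mul_inv_rev]
        _ = 1 := by rw [h1, inv_mul_cancel]
    have hzfix := hfix z hzP hzz
    have key : ∀ i : ℕ, t ^ i * x * (t ^ i)⁻¹ = x * z ^ i := by
      intro i
      induction i with
      | zero => simp
      | succ i ihi =>
        calc t ^ (i + 1) * x * (t ^ (i + 1))⁻¹ = t * (t ^ i * x * (t ^ i)⁻¹) * t⁻¹ := by
              rw [pow_succ']; group
          _ = (t * x * t⁻¹) * (t * z ^ i * t⁻¹) := by rw [ihi]; group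
          _ = x * z ^ (i + 1) := by
              rw [conj_pow', hzfix, show t * x * t⁻¹ = x * z by rw [hz, hy]; group, mul_assoc,
                ← pow_succ']
    have hzn : z ^ n = 1 := mul_eq_left.1 ((key n).symm.trans (hC x hx))
    obtain ⟨k, rfl⟩ := hn
    rw [pow_succ, pow_mul, pow_two, hzz, one_pow, one_mul, hz, inv_mul_eq_one] at hzn
    exact hzn.symm

/-- **An odd quotient acting on an abelian two-group with three involutions.** -/
theorem odd_action (hab : ∀ x ∈ P, ∀ y ∈ P, x * y = y * x)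
    (h2 : ∀ x ∈ P, ∃ j : ℕ, x ^ 2 ^ j = 1)
    (h3 : Nat.card {x : G // x ∈ P ∧ x * x = 1 ∧ x ≠ 1} = 3) {T : Subgroup G}
    (hTN : T ≤ Subgroup.normalizer (P : Set G)) (hCT : Subgroup.centralizer (P : Set G) ≤ T)
    (hodd : ¬ 2 ∣ (Subgroup.centralizer (P : Set G)).relIndex T) :
    ((Subgroup.centralizer (P : Set G)).relIndex T = 1 ∨
      (Subgroup.centralizer (P : Set G)).relIndex T = 3) ∧
    (∀ g ∈ T, ∀ x ∈ P, x ≠ 1 → g * x * g⁻¹ = x → g ∈ Subgroup.centralizer (P : Set G)) ∧
    ∀ g ∈ T, ∀ h ∈ T, g * h * g⁻¹ * h⁻¹ ∈ Subgroup.centralizer (P : Set G) := by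
  classical
  set C := Subgroup.centralizer (P : Set G) with hC
  set Ω := {x : G // x ∈ P ∧ x * x = 1 ∧ x ≠ 1}
  haveI : (C.subgroupOf T).Normal := (Subgroup.normal_subgroupOf_iff_le_normalizer hCT).mpr
    (hTN.trans (by
      intro g hg
      rw [Subgroup.mem_normalizer_iff] at hg ⊢
      intro y
      rw [hC, Subgroup.mem_centralizer_iff, Subgroup.mem_centralizer_iff]
      constructor
      · intro h z hz
        have hz' : g⁻¹ * z * g ∈ P := (hg _).2 (by simpa [mul_assoc] using hz)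
        have h' := h _ hz'
        calc z * (g * y * g⁻¹) = g * (g⁻¹ * z * g * y) * g⁻¹ := by group
          _ = g * (y * (g⁻¹ * z * g)) * g⁻¹ := by rw [h']
          _ = g * y * g⁻¹ * z := by group
      · intro h z hz
        have h' := h _ ((hg z).1 hz)
        calc z * y = g⁻¹ * (g * z * g⁻¹ * (g * y * g⁻¹)) * g := by group
          _ = g⁻¹ * (g * y * g⁻¹ * (g * z * g⁻¹)) * g := by rw [h']
          _ = y * z := by group))
  have hmem : ∀ (t : T), ∀ x ∈ P, (t : G) * x * (t : G)⁻¹ ∈ P := fun t x hx =>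
    (Subgroup.mem_normalizer_iff.1 (hTN t.2) x).1 hx
  letI act : MulAction T Ω :=
    { smul := fun t x => ⟨(t : G) * x.1 * (t : G)⁻¹, hmem t _ x.2.1, by
        rw [← pow_two, ← conj_pow', pow_two, x.2.2.1, mul_one, mul_inv_cancel], fun h => x.2.2.2 (by
          rwa [mul_inv_eq_one, mul_eq_left] at h)⟩
      one_smul := fun x => Subtype.ext (by
        show (1 : G) * x.1 * 1⁻¹ = x.1
        rw [one_mul, inv_one, mul_one])
      mul_smul := fun s t x => Subtype.ext (by
        show (s : G) * (t : G) * x.1 * ((s : G) * (t : G))⁻¹ =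
          (s : G) * ((t : G) * x.1 * (t : G)⁻¹) * (s : G)⁻¹
        group) }
  let φ : T →* Equiv.Perm Ω := MulAction.toPermHom T Ω
  have hker : φ.ker = C.subgroupOf T := by
    ext t
    rw [MonoidHom.mem_ker, Subgroup.mem_subgroupOf]
    constructor
    · intro h
      have hfix : ∀ x ∈ P, x * x = 1 → (t : G) * x * (t : G)⁻¹ = x := by
        intro x hx hxx
        by_cases hx1 : x = 1
        · rw [hx1, mul_one, mul_inv_cancel]
        exact congrArg Subtype.val (Equiv.ext_iff.1 h ⟨x, hx, hxx, hx1⟩)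
      have hn : (t : T) ^ C.relIndex T ∈ C.subgroupOf T := Subgroup.pow_index_mem _ t
      have hC' : ∀ x ∈ P, (t : G) ^ C.relIndex T * x * ((t : G) ^ C.relIndex T)⁻¹ = x := fun x hx => by
        have h' := Subgroup.mem_centralizer_iff.1 (Subgroup.mem_subgroupOf.1 hn) x hx
        rw [Subgroup.coe_pow] at h'
        rw [← h', mul_inv_cancel_right]
      have h' := conj_eq_of_fix_involutions hab h2 (hmem t)
        (Nat.odd_iff.2 (by omega)) hC' hfix
      exact Subgroup.mem_centralizer_iff.2 fun x hx =>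
        (mul_inv_eq_iff_eq_mul.1 (h' x hx)).symm
    · intro h
      refine Equiv.ext fun x => Subtype.ext ?_
      show (t : G) * x.1 * (t : G)⁻¹ = x.1
      rw [← Subgroup.mem_centralizer_iff.1 h x.1 x.2.1, mul_inv_cancel_right]
  set e := C.relIndex T with he
  have hdvd : e ∣ 6 := by
    have h := Subgroup.card_subgroup_dvd_card φ.range
    rw [Nat.card_congr (QuotientGroup.quotientKerEquivRange φ).symm.toEquiv, Nat.card_perm, h3,
      show Nat.factorial 3 = 6 from rfl] at h
    rwa [← Subgroup.index_eq_card, hker] at h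
  have hcases : e = 1 ∨ e = 3 := by
    have := Nat.le_of_dvd (by norm_num) hdvd
    interval_cases e <;> omega
  have hpow : ∀ t : T, φ t ^ 3 = 1 := by
    intro t
    rcases hcases with h | h
    · have h1 : t ^ e ∈ φ.ker := hker ▸ Subgroup.pow_index_mem _ t
      rw [h, pow_one, MonoidHom.mem_ker] at h1
      rw [h1, one_pow]
    · have h1 : t ^ e ∈ φ.ker := hker ▸ Subgroup.pow_index_mem _ t
      rwa [h, MonoidHom.mem_ker, map_pow] at h1
  haveI : Fintype Ω := Fintype.ofFinite Ω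
  refine ⟨hcases, fun g hg x hx hx1 hfix => ?_, fun g hg h hh => ?_⟩
  · -- a fixed involution
    obtain ⟨j, hj, hj1⟩ : ∃ j : ℕ, x ^ 2 ^ j ≠ 1 ∧ x ^ 2 ^ (j + 1) = 1 := by
      obtain ⟨n, hn⟩ := h2 x hx
      induction n with
      | zero => rw [pow_zero, pow_one] at hn; exact absurd hn hx1
      | succ n ih =>
        by_cases hh : x ^ 2 ^ n = 1
        · exact ih hh
        · exact ⟨n, hh, hn⟩
    let ω : Ω := ⟨x ^ 2 ^ j, P.pow_mem hx _, by rw [← pow_two, ← pow_mul, ← pow_succ, hj1], hj⟩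
    have hω : φ ⟨g, hg⟩ ω = ω := Subtype.ext (by
      show g * x ^ 2 ^ j * g⁻¹ = x ^ 2 ^ j
      rw [conj_pow', hfix])
    have h1 : φ ⟨g, hg⟩ = 1 := by
      have key : ∀ (σ : Equiv.Perm (Fin 3)) (i : Fin 3), σ ^ 3 = 1 → σ i = i → σ = 1 := by decide
      have eΩ : Ω ≃ Fin 3 := (Fintype.equivFinOfCardEq (by rw [← Nat.card_eq_fintype_card, h3]))
      have h := key (eΩ.permCongrHom (φ ⟨g, hg⟩)) (eΩ ω)
        (by rw [← map_pow, hpow, map_one]) (by simp [Equiv.permCongrHom, hω])
      exact eΩ.permCongrHom.injective (h.trans (map_one _).symm)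
    have h2' : (⟨g, hg⟩ : T) ∈ φ.ker := h1
    rw [hker, Subgroup.mem_subgroupOf] at h2'
    exact h2'
  · have hprime : IsMulCommutative φ.range := by
      have hcard : Nat.card φ.range = e := by
        rw [← Nat.card_congr (QuotientGroup.quotientKerEquivRange φ).toEquiv,
          ← Subgroup.index_eq_card, hker]
        rfl
      haveI : IsCyclic φ.range := by
        rcases hcases with h | h
        · haveI : Subsingleton φ.range :=
            (Nat.card_eq_one_iff_unique.1 (by omega)).1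
          infer_instance
        · haveI : Fact (Nat.Prime 3) := ⟨Nat.prime_three⟩
          exact isCyclic_of_prime_card (hcard.trans h)
      letI := IsCyclic.commGroup (α := φ.range)
      exact ⟨⟨fun a b => mul_comm a b⟩⟩
    have hc : (⟨g, hg⟩ * ⟨h, hh⟩ * ⟨g, hg⟩⁻¹ * ⟨h, hh⟩⁻¹ : T) ∈ φ.ker := by
      rw [MonoidHom.mem_ker, map_mul, map_mul, map_mul, map_inv, map_inv]
      have h' := congrArg Subtype.val (hprime.is_comm.comm
        (⟨φ ⟨g, hg⟩, ⟨_, rfl⟩⟩ : φ.range) ⟨φ ⟨h, hh⟩, ⟨_, rfl⟩⟩)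
      simp only [Subgroup.coe_mul] at h'
      rw [h', mul_inv_cancel_right, mul_inv_cancel]
    rw [hker, Subgroup.mem_subgroupOf] at hc
    exact hc

/-- A homocyclic two-group of rank two has three involutions. -/
theorem card_involutions {m : ℕ} (hm : 1 ≤ m)
    (e : P ≃* Multiplicative (ZMod (2 ^ m) × ZMod (2 ^ m))) :
    Nat.card {x : G // x ∈ P ∧ x * x = 1 ∧ x ≠ 1} = 3 := by
  haveI : NeZero (2 ^ m) := ⟨pow_ne_zero _ two_ne_zero⟩
  set N := 2 ^ m with hN
  have hsol : ∀ a : ZMod N, a + a = 0 ↔ a = 0 ∨ a = ((2 ^ (m - 1) : ℕ) : ZMod N) := by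
    intro a
    have hNe : N = 2 * 2 ^ (m - 1) := by rw [hN, ← pow_succ', Nat.sub_add_cancel hm]
    constructor
    · intro h
      have h' : ((a.val + a.val : ℕ) : ZMod N) = 0 := by rw [Nat.cast_add, ZMod.natCast_zmod_val]; exact h
      rw [ZMod.natCast_eq_zero_iff] at h'
      obtain ⟨k, hk⟩ := h'
      have hlt := ZMod.val_lt a
      have hk2 : k < 2 := by
        by_contra hk2
        have : N * 2 ≤ N * k := Nat.mul_le_mul_left _ (by omega)
        omega
      interval_cases k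
      · left; rw [← ZMod.natCast_zmod_val a, show a.val = 0 by omega, Nat.cast_zero]
      · right; rw [← ZMod.natCast_zmod_val a, show a.val = 2 ^ (m - 1) by omega]
    · rintro (rfl | rfl)
      · rw [add_zero]
      · rw [← Nat.cast_add, ← two_mul, ← hNe, ZMod.natCast_self]
  set a₀ : ZMod N := ((2 ^ (m - 1) : ℕ) : ZMod N) with ha₀
  have ha0 : a₀ ≠ 0 := by
    rw [ha₀, Ne, ZMod.natCast_eq_zero_iff]
    intro h
    have := Nat.le_of_dvd (pow_pos two_pos _) h
    have : N = 2 * 2 ^ (m - 1) := by rw [hN, ← pow_succ', Nat.sub_add_cancel hm]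
    have := pow_pos (two_pos (α := ℕ)) (m - 1)
    omega
  let f : {x : G // x ∈ P ∧ x * x = 1 ∧ x ≠ 1} ≃
      {z : ZMod N × ZMod N // z + z = 0 ∧ z ≠ 0} :=
    { toFun := fun x => ⟨(e ⟨x.1, x.2.1⟩).toAdd, by
        have h : (⟨x.1, x.2.1⟩ : P) * ⟨x.1, x.2.1⟩ = 1 := Subtype.ext x.2.2.1
        rw [← toAdd_mul, ← map_mul, h, map_one, toAdd_one], fun h => x.2.2.2 (by
          have := e.injective (a₁ := ⟨x.1, x.2.1⟩) (a₂ := 1) (by rw [map_one]; exact h)
          exact congrArg Subtype.val this)⟩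
      invFun := fun z => ⟨(e.symm (Multiplicative.ofAdd z.1) : P), (e.symm _).2, by
        rw [← Subgroup.coe_mul, ← map_mul, ← ofAdd_add, z.2.1, ofAdd_zero, map_one]; rfl,
        fun h => z.2.2 (by
          have h' : e.symm (Multiplicative.ofAdd z.1) = 1 := Subtype.ext h
          rwa [map_eq_one_iff _ e.symm.injective] at h')⟩
      left_inv := fun x => Subtype.ext (by simp)
      right_inv := fun z => Subtype.ext (by simp) }
  rw [Nat.card_congr f]
  have hset : {z : ZMod N × ZMod N | z + z = 0 ∧ z ≠ 0} = {(a₀, 0), (0, a₀), (a₀, a₀)} := by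
    ext ⟨a, b⟩
    simp only [Set.mem_setOf_eq, Prod.mk_add_mk, Prod.mk_eq_zero, ne_eq, hsol, Set.mem_insert_iff,
      Set.mem_singleton_iff, Prod.mk.injEq]
    constructor
    · rintro ⟨⟨rfl | rfl, rfl | rfl⟩, h⟩ <;> simp_all
    · rintro (⟨rfl, rfl⟩ | ⟨rfl, rfl⟩ | ⟨rfl, rfl⟩) <;> simp [ha0]
  show Nat.card ({z : ZMod N × ZMod N | z + z = 0 ∧ z ≠ 0} : Set _) = 3
  rw [hset, Nat.card_coe_set_eq, Set.ncard_eq_three]
  exact ⟨(a₀, 0), (0, a₀), (a₀, a₀), by simp [ha0], by simp [Ne.symm ha0], by simp [Ne.symm ha0], rfl⟩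

end CfsgLib.Blocks.RankTwoHomocyclic
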